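import Mathlib
import Cfsg.Agent.Lib.PresSL.Links

/-!
# The case of `SL₃`

A group generated by the image of `SL₂(F)` and an element `s` of order dividing `3`, with the rank
two relations, and finitely many commutator relations, has order at most that of `SL₃(F)`.
-/

set_option autoImplicit false
set_option linter.unusedSectionVars false

namespace Cfsg.Agent.Lib.PresSL.Three

open Equiv Equiv.Perm Matrix Matrix.SpecialLinearGroup
open scoped MatrixGroups
open Cfsg.Agent.Lib.PSL2.Basic Cfsg.Agent.Lib.PresSL.Aut Cfsg.Agent.Lib.PresSL.Rank2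
open Cfsg.Agent.Lib.PresSL.Core Cfsg.Agent.Lib.PresSL.Real
open Cfsg.Agent.Lib.Steinberg.Family

variable {F : Type*} [Field F] {K : Type*} [Group K] {ψ : SL(2, F) →* K} {s : K}

section Defs

variable (ψ s)

/-- The root elements of the first commutator relation. -/
def A (a : F) : K := ψ (x a)
/-- The root elements of the first commutator relation. -/
def B (b : F) : K := cj s (ψ (x b))
/-- The root elements of the first commutator relation. -/
def C (c : F) : K := cj s⁻¹ (ψ (y c))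

/-- The commutator relation. -/
def PP (a b : F) : Prop :=
  A ψ a * B ψ s b * (A ψ a)⁻¹ * (B ψ s b)⁻¹ = C ψ s (a * b)
/-- Same row. -/
def Row (a b : F) : Prop := A ψ a * C ψ s b = C ψ s b * A ψ a
/-- Same column. -/
def Col (a b : F) : Prop := C ψ s a * B ψ s b = B ψ s b * C ψ s a

end Defs

namespace Torus

variable (R : Rank ψ s)
include R

theorem T1A (u : Fˣ) (a : F) : cj (ψ (dd u)) (A ψ a) = A ψ ((u : F) ^ 2 * a) := by
  simp only [A]
  rw [cj_map, dd_x]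

theorem T1B (u : Fˣ) (b : F) : cj (ψ (dd u)) (B ψ s b) = B ψ s (((u⁻¹ : Fˣ) : F) * b) := by
  simp only [B]
  rw [R.act, aut_x]

theorem T1C (u : Fˣ) (c : F) : cj (ψ (dd u)) (C ψ s c) = C ψ s ((u : F) * c) := by
  simp only [C]
  rw [R.act_prev, aut_y]
  simp

theorem T2A (v : Fˣ) (a : F) : cj (cj s (ψ (dd v))) (A ψ a) = A ψ (((v⁻¹ : Fˣ) : F) * a) := by
  simp only [A]
  rw [R.act1_0, aut_x]

theorem T2B (v : Fˣ) (b : F) : cj (cj s (ψ (dd v))) (B ψ s b) = B ψ s ((v : F) ^ 2 * b) := by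
  simp only [B]
  rw [← cj_cj, cj_map, dd_x]

theorem T2C (v : Fˣ) (c : F) : cj (cj s (ψ (dd v))) (C ψ s c) = C ψ s ((v : F) * c) := by
  simp only [C]
  rw [R.act1_2, aut_y]
  simp

theorem PP_T1 {a b : F} (h : PP ψ s a b) (u : Fˣ) :
    PP ψ s ((u : F) ^ 2 * a) (((u⁻¹ : Fˣ) : F) * b) := by
  have h1 := congrArg (cj (ψ (dd u))) h
  rw [SFam.cj_comm, T1A R, T1B R, T1C R] at h1
  unfold PP
  rw [h1]
  congr 1
  simp only [Units.val_inv_eq_inv_val]
  have := u.ne_zero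
  field_simp

theorem PP_T2 {a b : F} (h : PP ψ s a b) (v : Fˣ) :
    PP ψ s (((v⁻¹ : Fˣ) : F) * a) ((v : F) ^ 2 * b) := by
  have h1 := congrArg (cj (cj s (ψ (dd v)))) h
  rw [SFam.cj_comm, T2A R, T2B R, T2C R] at h1
  unfold PP
  rw [h1]
  congr 1
  simp only [Units.val_inv_eq_inv_val]
  have := v.ne_zero
  field_simp

theorem Row_T1 {a b : F} (h : Row ψ s a b) (u : Fˣ) :
    Row ψ s ((u : F) ^ 2 * a) ((u : F) * b) := by
  have h1 := comm_cj (d := ψ (dd u)) h
  rwa [T1A R, T1C R] at h1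

theorem Row_T2 {a b : F} (h : Row ψ s a b) (v : Fˣ) :
    Row ψ s (((v⁻¹ : Fˣ) : F) * a) ((v : F) * b) := by
  have h1 := comm_cj (d := cj s (ψ (dd v))) h
  rwa [T2A R, T2C R] at h1

theorem Col_T1 {a b : F} (h : Col ψ s a b) (u : Fˣ) :
    Col ψ s ((u : F) * a) (((u⁻¹ : Fˣ) : F) * b) := by
  have h1 := comm_cj (d := ψ (dd u)) h
  rwa [T1C R, T1B R] at h1

theorem Col_T2 {a b : F} (h : Col ψ s a b) (v : Fˣ) :
    Col ψ s ((v : F) * a) ((v : F) ^ 2 * b) := by
  have h1 := comm_cj (d := cj s (ψ (dd v))) h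
  rwa [T2C R, T2B R] at h1

end Torus

section Cube

/-- Cube classes. -/
theorem cube_rep {ζ : Fˣ} (hζ : ∀ u : Fˣ, ∃ k : ℕ, u = ζ ^ k) (z : Fˣ) :
    ∃ i : Fin 3, ∃ t : Fˣ, z * ζ ^ (i : ℕ) = t ^ 3 := by
  obtain ⟨k, rfl⟩ := hζ z
  have h1 : (k + (3 - k % 3) % 3) % 3 = 0 := by omega
  refine ⟨⟨(3 - k % 3) % 3, by omega⟩, ζ ^ ((k + (3 - k % 3) % 3) / 3), ?_⟩
  simp only
  rw [← pow_add, ← pow_mul]
  congr 1
  omega

variable (R : Rank ψ s) {ζ : Fˣ} (hζ : ∀ u : Fˣ, ∃ k : ℕ, u = ζ ^ k)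
include R hζ

theorem PP_all (h : ∀ i : Fin 3, PP ψ s 1 ((ζ : F) ^ (i : ℕ))) (a b : F) : PP ψ s a b := by
  by_cases ha : a = 0
  · subst ha
    simp [PP, A, B, C, cj]
  by_cases hb : b = 0
  · subst hb
    simp [PP, A, B, C, cj]
  let a' : Fˣ := Units.mk0 a ha
  let b' : Fˣ := Units.mk0 b hb
  obtain ⟨i, t, ht⟩ := cube_rep hζ (a' * b'⁻¹)
  have ht' : a / b * (ζ : F) ^ (i : ℕ) = (t : F) ^ 3 := by
    have := congrArg Units.val ht
    simpa [a', b', div_eq_mul_inv] using this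
  have h0 := h i
  have h1 := Torus.PP_T2 R (Torus.PP_T1 R h0 (a' * t⁻¹)) (a' * t⁻¹ * t⁻¹)
  have ht0 : (t : F) ≠ 0 := t.ne_zero
  convert h1 using 1
  · simp only [a', Units.val_inv_eq_inv_val, Units.val_mul, Units.val_mk0]
    field_simp
  · simp only [a', Units.val_inv_eq_inv_val, Units.val_mul, Units.val_mk0]
    have e : (ζ : F) ^ (i : ℕ) = (t : F) ^ 3 * b / a := by
      rw [← ht']
      field_simp
    rw [e]
    field_simp

theorem Row_all (h : ∀ i : Fin 3, Row ψ s 1 ((ζ : F) ^ (i : ℕ))) (a b : F) : Row ψ s a b := by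
  by_cases ha : a = 0
  · subst ha
    simp [Row, A]
  by_cases hb : b = 0
  · subst hb
    simp [Row, C, cj]
  let a' : Fˣ := Units.mk0 a ha
  let b' : Fˣ := Units.mk0 b hb
  obtain ⟨i, t, ht⟩ := cube_rep hζ (a' * b')⁻¹
  have ht' : (a * b)⁻¹ * (ζ : F) ^ (i : ℕ) = (t : F) ^ 3 := by
    have := congrArg Units.val ht
    simpa [a', b'] using this
  have h0 := h i
  have ht0 : (t : F) ≠ 0 := t.ne_zero
  have h1 := Torus.Row_T2 R (Torus.Row_T1 R h0 t⁻¹) (t⁻¹ * t⁻¹ * a'⁻¹)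
  convert h1 using 1
  · simp only [a', Units.val_inv_eq_inv_val, Units.val_mul, Units.val_mk0]
    field_simp
  · simp only [a', Units.val_inv_eq_inv_val, Units.val_mul, Units.val_mk0]
    have e : (ζ : F) ^ (i : ℕ) = (t : F) ^ 3 * (a * b) := by
      rw [← ht']
      field_simp
    rw [e]
    field_simp

theorem Col_all (h : ∀ i : Fin 3, Col ψ s 1 ((ζ : F) ^ (i : ℕ))) (a b : F) : Col ψ s a b := by
  by_cases ha : a = 0
  · subst ha
    simp [Col, C, cj]
  by_cases hb : b = 0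
  · subst hb
    simp [Col, B, cj]
  let a' : Fˣ := Units.mk0 a ha
  let b' : Fˣ := Units.mk0 b hb
  obtain ⟨i, t, ht⟩ := cube_rep hζ (a' * b')⁻¹
  have ht' : (a * b)⁻¹ * (ζ : F) ^ (i : ℕ) = (t : F) ^ 3 := by
    have := congrArg Units.val ht
    simpa [a', b'] using this
  have h0 := h i
  have ht0 : (t : F) ≠ 0 := t.ne_zero
  have h1 := Torus.Col_T2 R (Torus.Col_T1 R h0 (a' * t)) t⁻¹
  convert h1 using 1
  · simp only [a', Units.val_inv_eq_inv_val, Units.val_mul, Units.val_mk0]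
    field_simp
  · simp only [a', Units.val_inv_eq_inv_val, Units.val_mul, Units.val_mk0]
    have e : (ζ : F) ^ (i : ℕ) = (t : F) ^ 3 * (a * b) := by
      rw [← ht']
      field_simp
    rw [e]
    field_simp

end Cube

section Fam

variable (ψ s)

/-- The root elements. -/
noncomputable def yy (i j : Fin 3) (t : F) : K :=
  (![![1, ψ (x t), cj s⁻¹ (ψ (y t))], ![ψ (y t), 1, cj s (ψ (x t))],
    ![cj s⁻¹ (ψ (x t)), cj s (ψ (y t)), 1]] : Fin 3 → Fin 3 → K) i j

variable {ψ s}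

variable (R : Rank ψ s) (hP : ∀ a b : F, PP ψ s a b) (hRow : ∀ a b : F, Row ψ s a b)
  (hCol : ∀ a b : F, Col ψ s a b)

include R

theorem yy_add (i j : Fin 3) (hij : i ≠ j) (a b : F) :
    yy ψ s i j (a + b) = yy ψ s i j a * yy ψ s i j b := by
  have h1 : ∀ k : K, cj k (ψ (x (a + b))) = cj k (ψ (x a)) * cj k (ψ (x b)) := by
    intro k
    rw [x_add, map_mul, cj_mul]
  have h2 : ∀ k : K, cj k (ψ (y (a + b))) = cj k (ψ (y a)) * cj k (ψ (y b)) := by
    intro k
    rw [y_add, map_mul, cj_mul]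
  have h3 : ψ (x (a + b)) = ψ (x a) * ψ (x b) := by rw [x_add, map_mul]
  have h4 : ψ (y (a + b)) = ψ (y a) * ψ (y b) := by rw [y_add, map_mul]
  fin_cases i <;> fin_cases j <;> first | exact absurd rfl hij | exact h1 _ | exact h2 _ | exact h3 | exact h4

omit R in
theorem sinv_sinv (R : Rank ψ s) (z : K) : cj s⁻¹ (cj s⁻¹ z) = cj s z := by
  rw [← cj_comp]
  have : s⁻¹ * s⁻¹ = s := by
    rw [R.s_inv]
    calc s * s * (s * s) = (s * s * s) * s := by group
      _ = s := by rw [R.s3, one_mul]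
  rw [this]

/-- The second commutator relation. -/
theorem QQ (h : ∀ a b : F, PP ψ s a b) (a b : F) :
    ψ (y a) * cj s⁻¹ (ψ (y b)) * (ψ (y a))⁻¹ * (cj s⁻¹ (ψ (y b)))⁻¹ = cj s (ψ (x (a * b))) := by
  have h0 := h (-a) (-b)
  unfold PP at h0
  simp only [A, B, C] at h0
  have h1 := congrArg (cj (ψ w)⁻¹) h0
  rw [SFam.cj_comm, cj_map_inv, R.T_next, R.T_prev_inv] at h1
  have e1 : cj (w : SL(2, F))⁻¹ (x (-a)) = y a := by
    simp only [cj, inv_inv]
    rw [winv_x, neg_neg]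
  have e2 : cj (w : SL(2, F)) (x (-b)) = y b := by
    have := w_x_w_inv (-b)
    rw [neg_neg] at this
    exact this
  have e3 : cj (w : SL(2, F))⁻¹ (y (-a * -b)) = x (-(a * b)) := by
    simp only [cj, inv_inv]
    rw [winv_y, neg_mul_neg]
  have e4 : aut (-1 : Fˣ) (x (-(a * b))) = (x (a * b) : SL(2, F)) := by
    rw [aut_x]
    simp
  rw [e1, e2, e3, e4] at h1
  exact h1

omit R in
theorem comm_helper {d A B D : K} (h : A * B * A⁻¹ * B⁻¹ = D) :
    cj d A * cj d B * (cj d A)⁻¹ * (cj d B)⁻¹ = cj d D := by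
  rw [← h, SFam.cj_comm]

include hP hRow hCol

/-- The family. -/
noncomputable def fam : SFam (Fin 3) F K where
  y := yy ψ s
  add := fun i j hij a b => yy_add R i j hij a b
  comm := by
    intro i j k hij hjk hik a b
    have c012 : ∀ a b : F, ψ (x a) * cj s (ψ (x b)) * (ψ (x a))⁻¹ * (cj s (ψ (x b)))⁻¹ =
        cj s⁻¹ (ψ (y (a * b))) := fun a b => hP a b
    have c102 := QQ R hP
    have e1 : ∀ z, cj s (cj s⁻¹ z) = z := fun z => cj_cj_inv s z
    have e2 : ∀ z, cj s⁻¹ (cj s z) = z := fun z => cj_inv_cj s z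
    have c120 : ∀ a b : F, cj s (ψ (x a)) * cj s⁻¹ (ψ (x b)) * (cj s (ψ (x a)))⁻¹ *
        (cj s⁻¹ (ψ (x b)))⁻¹ = ψ (y (a * b)) := by
      intro a b
      have := comm_helper (d := s) (c012 a b)
      rwa [R.cj_s_s, e1] at this
    have c201 : ∀ a b : F, cj s⁻¹ (ψ (x a)) * ψ (x b) * (cj s⁻¹ (ψ (x a)))⁻¹ * (ψ (x b))⁻¹ =
        cj s (ψ (y (a * b))) := by
      intro a b
      have := comm_helper (d := s⁻¹) (c012 a b)
      rwa [e2, sinv_sinv R] at this
    have c210 : ∀ a b : F, cj s (ψ (y a)) * ψ (y b) * (cj s (ψ (y a)))⁻¹ * (ψ (y b))⁻¹ =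
        cj s⁻¹ (ψ (x (a * b))) := by
      intro a b
      have := comm_helper (d := s) (c102 a b)
      rwa [e1, R.cj_s_s] at this
    have c021 : ∀ a b : F, cj s⁻¹ (ψ (y a)) * cj s (ψ (y b)) * (cj s⁻¹ (ψ (y a)))⁻¹ *
        (cj s (ψ (y b)))⁻¹ = ψ (x (a * b)) := by
      intro a b
      have := comm_helper (d := s⁻¹) (c102 a b)
      rwa [sinv_sinv R, e2] at this
    fin_cases i <;> fin_cases j <;> fin_cases k <;>
      first
        | exact absurd rfl hij
        | exact absurd rfl hjk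
        | exact absurd rfl hik
        | exact c012 a b
        | exact c021 a b
        | exact c102 a b
        | exact c120 a b
        | exact c201 a b
        | exact c210 a b
  comm' := by
    intro i j k l hij hkl hjk hil a b
    have e1 : ∀ z, cj s (cj s⁻¹ z) = z := fun z => cj_cj_inv s z
    have e2 : ∀ z, cj s⁻¹ (cj s z) = z := fun z => cj_inv_cj s z
    have r0 : ∀ a b : F, ψ (x a) * cj s⁻¹ (ψ (y b)) = cj s⁻¹ (ψ (y b)) * ψ (x a) := hRow
    have r1 : ∀ a b : F, cj s (ψ (x a)) * ψ (y b) = ψ (y b) * cj s (ψ (x a)) := by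
      intro a b
      have := comm_cj (d := s) (r0 a b)
      rwa [e1] at this
    have r2 : ∀ a b : F, cj s⁻¹ (ψ (x a)) * cj s (ψ (y b)) = cj s (ψ (y b)) * cj s⁻¹ (ψ (x a)) := by
      intro a b
      have := comm_cj (d := s⁻¹) (r0 a b)
      rwa [sinv_sinv R] at this
    have c0 : ∀ a b : F, cj s⁻¹ (ψ (y a)) * cj s (ψ (x b)) = cj s (ψ (x b)) * cj s⁻¹ (ψ (y a)) := hCol
    have c1 : ∀ a b : F, ψ (y a) * cj s⁻¹ (ψ (x b)) = cj s⁻¹ (ψ (x b)) * ψ (y a) := by
      intro a b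
      have := comm_cj (d := s) (c0 a b)
      rwa [e1, R.cj_s_s] at this
    have c2 : ∀ a b : F, cj s (ψ (y a)) * ψ (x b) = ψ (x b) * cj s (ψ (y a)) := by
      intro a b
      have := comm_cj (d := s⁻¹) (c0 a b)
      rwa [sinv_sinv R, e2] at this
    have s0 : ψ (x a) * ψ (x b) = ψ (x b) * ψ (x a) := by
      rw [← map_mul, ← map_mul, ← x_add, ← x_add, add_comm]
    have s1 : ψ (y a) * ψ (y b) = ψ (y b) * ψ (y a) := by
      rw [← map_mul, ← map_mul, ← y_add, ← y_add, add_comm]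
    have s2 : cj s (ψ (x a)) * cj s (ψ (x b)) = cj s (ψ (x b)) * cj s (ψ (x a)) := comm_cj s0
    have s3 : cj s (ψ (y a)) * cj s (ψ (y b)) = cj s (ψ (y b)) * cj s (ψ (y a)) := comm_cj s1
    have s4 : cj s⁻¹ (ψ (x a)) * cj s⁻¹ (ψ (x b)) = cj s⁻¹ (ψ (x b)) * cj s⁻¹ (ψ (x a)) := comm_cj s0
    have s5 : cj s⁻¹ (ψ (y a)) * cj s⁻¹ (ψ (y b)) = cj s⁻¹ (ψ (y b)) * cj s⁻¹ (ψ (y a)) := comm_cj s1
    fin_cases i <;> fin_cases j <;> fin_cases k <;> fin_cases l <;>
      first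
        | exact absurd rfl hij
        | exact absurd rfl hkl
        | exact absurd rfl hjk
        | exact absurd rfl hil
        | exact s0
        | exact s1
        | exact s2
        | exact s3
        | exact s4
        | exact s5
        | exact r0 a b
        | exact (r0 b a).symm
        | exact r1 a b
        | exact (r1 b a).symm
        | exact r2 a b
        | exact (r2 b a).symm
        | exact c0 a b
        | exact (c0 b a).symm
        | exact c1 a b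
        | exact (c1 b a).symm
        | exact c2 a b
        | exact (c2 b a).symm

end Fam

section Bound

variable {R : Rank ψ s} {hP : ∀ a b : F, PP ψ s a b} {hRow : ∀ a b : F, Row ψ s a b}
  {hCol : ∀ a b : F, Col ψ s a b}

local notation "Yf" => fam R hP hRow hCol

theorem h_matrix' (u : Fˣ) :
    (y (u : F) * x (-(u : F)⁻¹) * y (u : F)) * (y (-1) * x (-(-1 : F)⁻¹) * y (-1)) =
      (dd u⁻¹ : SL(2, F)) := by
  have h := congrArg (sharp (F := F)) (h_matrix u)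
  simp only [map_mul, sharp_x, sharp_y, sharp_dd] at h
  exact h

/-- The torus elements. -/
theorem h_of_root {i j : Fin 3} {k : K} (h1 : ∀ t, (Yf).y i j t = cj k (ψ (x t)))
    (h2 : ∀ t, (Yf).y j i t = cj k (ψ (y t))) (u : Fˣ) :
    (Yf).h i j (u : F) = cj k (ψ (dd u)) := by
  rw [SFam.h, SFam.w, SFam.w]
  simp only [h1, h2]
  rw [← h_matrix u]
  simp only [map_mul, cj_mul]

/-- The torus elements. -/
theorem h_of_root' {i j : Fin 3} {k : K} (h1 : ∀ t, (Yf).y i j t = cj k (ψ (y t)))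
    (h2 : ∀ t, (Yf).y j i t = cj k (ψ (x t))) (u : Fˣ) :
    (Yf).h i j (u : F) = cj k (ψ (dd u⁻¹)) := by
  rw [SFam.h, SFam.w, SFam.w]
  simp only [h1, h2]
  rw [← h_matrix' u]
  simp only [map_mul, cj_mul]

theorem T_of_root [Fintype F] {i j : Fin 3} {k : K} (f : Fˣ → K)
    (hf : ∃ f' : Fˣ →* K, ∀ u, f u ∈ f'.range)
    (hT : ∀ u : Fˣ, (Yf).h i j (u : F) = f u) :
    Finite ((Yf).T i j) ∧ Nat.card ((Yf).T i j) ≤ Fintype.card F - 1 := by
  classical
  obtain ⟨f', hf'⟩ := hf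
  have hle : (Yf).T i j ≤ f'.range := by
    rw [SFam.T, Subgroup.closure_le]
    rintro _ ⟨u, hu, rfl⟩
    have := hT (Units.mk0 u hu)
    rw [Units.val_mk0] at this
    rw [this]
    exact hf' _
  haveI : Finite f'.range := Finite.of_surjective f'.rangeRestrict f'.rangeRestrict_surjective
  refine ⟨Finite.of_injective _ (Subgroup.inclusion_injective hle), ?_⟩
  calc Nat.card ((Yf).T i j) ≤ Nat.card f'.range :=
        Nat.card_le_card_of_injective _ (Subgroup.inclusion_injective hle)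
    _ ≤ Nat.card Fˣ := Nat.card_le_card_of_surjective f'.rangeRestrict f'.rangeRestrict_surjective
    _ = Fintype.card F - 1 := by
        rw [Nat.card_eq_fintype_card, Fintype.card_units]

/-- The order of the torus. -/
theorem T_bound [Fintype F] {i j : Fin 3} (hij : i ≠ j) :
    Finite ((Yf).T i j) ∧ Nat.card ((Yf).T i j) ≤ Fintype.card F - 1 := by
  have e1 : ∀ z : K, cj 1 z = z := fun z => by simp [cj]
  have key1 : ∀ (k : K) (u : Fˣ), cj k (ψ (dd u)) ∈ (((cjHom k ψ).comp ddHom)).range :=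
    fun k u => ⟨u, rfl⟩
  have key2 : ∀ (k : K) (u : Fˣ), cj k (ψ (dd u⁻¹)) ∈ (((cjHom k ψ).comp ddHom)).range :=
    fun k u => ⟨u⁻¹, rfl⟩
  have t01 : ∀ u : Fˣ, (Yf).h 0 1 (u : F) = cj 1 (ψ (dd u)) :=
    h_of_root (fun t => (e1 _).symm) (fun t => (e1 _).symm)
  have t10 : ∀ u : Fˣ, (Yf).h 1 0 (u : F) = cj 1 (ψ (dd u⁻¹)) :=
    h_of_root' (fun t => (e1 _).symm) (fun t => (e1 _).symm)
  have t12 : ∀ u : Fˣ, (Yf).h 1 2 (u : F) = cj s (ψ (dd u)) :=
    h_of_root (fun t => rfl) (fun t => rfl)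
  have t21 : ∀ u : Fˣ, (Yf).h 2 1 (u : F) = cj s (ψ (dd u⁻¹)) :=
    h_of_root' (fun t => rfl) (fun t => rfl)
  have t20 : ∀ u : Fˣ, (Yf).h 2 0 (u : F) = cj s⁻¹ (ψ (dd u)) :=
    h_of_root (fun t => rfl) (fun t => rfl)
  have t02 : ∀ u : Fˣ, (Yf).h 0 2 (u : F) = cj s⁻¹ (ψ (dd u⁻¹)) :=
    h_of_root' (fun t => rfl) (fun t => rfl)
  fin_cases i <;> fin_cases j
  · exact absurd rfl hij
  · exact T_of_root (k := 1) _ ⟨_, key1 1⟩ t01
  · exact T_of_root (k := s⁻¹) _ ⟨_, key2 s⁻¹⟩ t02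
  · exact T_of_root (k := 1) _ ⟨_, key2 1⟩ t10
  · exact absurd rfl hij
  · exact T_of_root (k := s) _ ⟨_, key1 s⟩ t12
  · exact T_of_root (k := s⁻¹) _ ⟨_, key1 s⁻¹⟩ t20
  · exact T_of_root (k := s) _ ⟨_, key2 s⟩ t21
  · exact absurd rfl hij

theorem mem_W1 (g : SL(2, F)) : ψ g ∈ (Yf).W := by
  refine map_mem_of ψ _ (fun t => ?_) (fun t => ?_) g
  · exact Subgroup.subset_closure ⟨0, 1, by decide, t, rfl⟩
  · exact Subgroup.subset_closure ⟨1, 0, by decide, t, rfl⟩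

theorem mem_W2 (g : SL(2, F)) : cj s (ψ g) ∈ (Yf).W := by
  have : ∀ g, cjHom s ψ g ∈ (Yf).W := by
    refine map_mem_of (cjHom s ψ) _ (fun t => ?_) (fun t => ?_)
    · exact Subgroup.subset_closure ⟨1, 2, by decide, t, rfl⟩
    · exact Subgroup.subset_closure ⟨2, 1, by decide, t, rfl⟩
  exact this g

theorem mem_Ws : s ∈ (Yf).W := by
  have hT := mem_W1 (R := R) (hP := hP) (hRow := hRow) (hCol := hCol) w
  have h1 : s * s = cj s (ψ w) * ψ w := by
    have h2 := R.sw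
    have h4 : s * (ψ w)⁻¹ * s = ψ w := mul_inv_eq_one.1 h2
    calc s * s = (s * ψ w * s⁻¹) * (s * (ψ w)⁻¹ * s) := by group
      _ = _ := by rw [h4]; rfl
  have h2 : s * s ∈ (Yf).W := by
    rw [h1]
    exact mul_mem (mem_W2 w) hT
  have h3 : s = (s * s)⁻¹ := by
    apply eq_inv_of_mul_eq_one_left
    have := R.s3
    rw [mul_assoc] at this
    exact this
  have h5 := inv_mem h2
  have e : (s * s)⁻¹ = s := h3.symm
  rwa [e] at h5

theorem fam_bound [Fintype F] (R : Rank ψ s) (hP : ∀ a b : F, PP ψ s a b)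
    (hRow : ∀ a b : F, Row ψ s a b) (hCol : ∀ a b : F, Col ψ s a b) (hgen : Subgroup.closure (insert s (Set.range ψ)) = ⊤) :
    Finite K ∧ Nat.card K ≤ Nat.card (SpecialLinearGroup (Fin 3) F) := by
  have h3 : ∀ i j : Fin (2 + 1), ∃ k, i ≠ k ∧ j ≠ k := by decide
  obtain ⟨hf, hcard⟩ := SFam.card_W_le₀ (m := 2) (fam R hP hRow hCol) h3 (fun a b hab => T_bound hab)
  have hW : (fam R hP hRow hCol).W = ⊤ := by
    rw [eq_top_iff]
    have h4 : Subgroup.closure (insert s (Set.range ψ)) ≤ (fam R hP hRow hCol).W := by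
      rw [Subgroup.closure_le]
      rintro z (hz | ⟨g, rfl⟩)
      · have hz' : z = s := hz
        rw [hz']
        exact mem_Ws
      · exact mem_W1 g
    rw [hgen] at h4
    exact h4
  rw [hW] at hf hcard
  have e := SFam.card_SL_eq_Nb (F := F) 2
  refine ⟨Finite.of_equiv _ Subgroup.topEquiv.toEquiv, ?_⟩
  rw [Subgroup.card_top] at hcard
  exact hcard.trans (le_of_eq e.symm)

end Bound

end Cfsg.Agent.Lib.PresSL.Three
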