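import Mathlib
import Cfsg.Agent.Lib.PresSL.Three

/-!
# Deriving the row and column relations of `SL₃` from the commutator relation
-/

set_option autoImplicit false
set_option linter.unusedSectionVars false

namespace Cfsg.Agent.Lib.PresSL.Three

open Matrix Matrix.SpecialLinearGroup
open scoped MatrixGroups
open Cfsg.Agent.Lib.PSL2.Basic Cfsg.Agent.Lib.PresSL.Aut Cfsg.Agent.Lib.PresSL.Rank2
open Cfsg.Agent.Lib.Steinberg.Family

variable {F : Type*} [Field F] {K : Type*} [Group K] {ψ : SL(2, F) →* K} {s : K}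

section Add

theorem A_add (a b : F) : A ψ (a + b) = A ψ a * A ψ b := by
  simp only [A, x_add, map_mul]

theorem B_add (a b : F) : B ψ s (a + b) = B ψ s a * B ψ s b := by
  simp only [B, x_add, map_mul, cj_mul]

theorem C_add (a b : F) : C ψ s (a + b) = C ψ s a * C ψ s b := by
  simp only [C, y_add, map_mul, cj_mul]

theorem A_neg (a : F) : A ψ (-a) = (A ψ a)⁻¹ := by
  simp only [A, ← x_inv, map_inv]

theorem B_neg (a : F) : B ψ s (-a) = (B ψ s a)⁻¹ := by
  simp only [B, ← x_inv, map_inv, cj_inv]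

theorem C_neg (a : F) : C ψ s (-a) = (C ψ s a)⁻¹ := by
  simp only [C, ← y_inv, map_inv, cj_inv]

theorem A_zero : A ψ (0 : F) = 1 := by
  simp [A]

theorem B_zero : B ψ s (0 : F) = 1 := by
  simp [B, cj]

theorem C_zero : C ψ s (0 : F) = 1 := by
  simp [C, cj]

theorem C_comm (a b : F) : C ψ s a * C ψ s b = C ψ s b * C ψ s a := by
  rw [← C_add, ← C_add, add_comm]

end Add

section Sum

/-- The row relation from a sum. -/
theorem row_of_sum {a a' b : F} (h1 : PP ψ s a b) (h2 : PP ψ s a' b) (h3 : PP ψ s (a + a') b) :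
    Row ψ s a (a' * b) := by
  unfold PP at h1 h2 h3
  unfold Row
  rw [A_add, add_mul, C_add] at h3
  have key : A ψ a * C ψ s (a' * b) * (A ψ a)⁻¹ * C ψ s (a * b) =
      C ψ s (a' * b) * C ψ s (a * b) := by
    rw [← C_comm (a * b) (a' * b), ← h3, ← h1, ← h2]
    group
  have h4 := mul_right_cancel key
  exact mul_inv_eq_iff_eq_mul.1 h4

/-- The column relation from a sum. -/
theorem col_of_sum {a b b' : F} (h1 : PP ψ s a b) (h2 : PP ψ s a b') (h3 : PP ψ s a (b + b')) :
    Col ψ s (a * b') b := by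
  unfold PP at h1 h2 h3
  unfold Col
  rw [B_add, mul_add, C_add] at h3
  have key : C ψ s (a * b) * (B ψ s b * C ψ s (a * b') * (B ψ s b)⁻¹) =
      C ψ s (a * b) * C ψ s (a * b') := by
    rw [← h3, ← h1, ← h2]
    group
  have h4 := mul_left_cancel key
  have h5 := mul_inv_eq_iff_eq_mul.1 h4
  exact h5.symm

/-- With all commutator relations, the others follow. -/
theorem Row_of_PP (hP : ∀ a b : F, PP ψ s a b) (a c : F) : Row ψ s a c := by
  have := row_of_sum (a' := c) (b := 1) (hP a 1) (hP c 1) (hP (a + c) 1)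
  simpa using this

theorem Col_of_PP (hP : ∀ a b : F, PP ψ s a b) (a c : F) : Col ψ s a c := by
  have := col_of_sum (a := 1) (b := c) (b' := a) (hP 1 c) (hP 1 a) (hP 1 (c + a))
  simpa using this

end Sum

section Cubes

/-- The nonzero cubes. -/
def Cb (F : Type*) [Field F] : Set F := {z | ∃ t : F, t ≠ 0 ∧ z = t ^ 3}

theorem Cb_ne {z : F} (h : z ∈ Cb F) : z ≠ 0 := by
  obtain ⟨t, ht, rfl⟩ := h
  exact pow_ne_zero 3 ht

theorem Cb_mul {z w : F} (hz : z ∈ Cb F) (hw : w ∈ Cb F) : z * w ∈ Cb F := by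
  obtain ⟨t, ht, rfl⟩ := hz
  obtain ⟨r, hr, rfl⟩ := hw
  exact ⟨t * r, mul_ne_zero ht hr, by ring⟩

theorem Cb_inv {z : F} (hz : z ∈ Cb F) : z⁻¹ ∈ Cb F := by
  obtain ⟨t, ht, rfl⟩ := hz
  exact ⟨t⁻¹, inv_ne_zero ht, by rw [inv_pow]⟩

theorem Cb_one : (1 : F) ∈ Cb F := ⟨1, one_ne_zero, by ring⟩

variable (R : Rank ψ s)
include R

/-- The commutator relation on the cube class. -/
theorem PP_of_cube (h : PP ψ s 1 1) {a b : F} (ha : a ≠ 0) (hb : b ≠ 0) (hc : a / b ∈ Cb F) :
    PP ψ s a b := by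
  obtain ⟨t, ht, hz⟩ := hc
  let a' : Fˣ := Units.mk0 a ha
  let t' : Fˣ := Units.mk0 t ht
  have h1 := Torus.PP_T2 R (Torus.PP_T1 R h (a' * t'⁻¹)) (a' * t'⁻¹ * t'⁻¹)
  have e : b = a / t ^ 3 := by
    rw [← hz]
    field_simp
  convert h1 using 1
  · simp only [a', t', Units.val_inv_eq_inv_val, Units.val_mul, Units.val_mk0]
    field_simp
  · simp only [a', t', Units.val_inv_eq_inv_val, Units.val_mul, Units.val_mk0]
    rw [e]
    field_simp

/-- Spreading the row relation. -/
theorem Row_spread {u v : F} (hu : u ≠ 0) (hv : v ≠ 0) (h : Row ψ s u v) (huv : u * v ∈ Cb F)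
    {a c : F} (ha : a ≠ 0) (hc : c ≠ 0) (hac : a * c ∈ Cb F) : Row ψ s a c := by
  obtain ⟨r, hr, hrz⟩ := Cb_mul hac (Cb_inv huv)
  let r' : Fˣ := Units.mk0 r hr
  let t' : Fˣ := Units.mk0 (r ^ 2 * u / a) (div_ne_zero (mul_ne_zero (pow_ne_zero 2 hr) hu) ha)
  have h1 := Torus.Row_T2 R (Torus.Row_T1 R h r') t'
  have e : c = r ^ 3 * (u * v) / a := by
    rw [← hrz]
    field_simp
  convert h1 using 1
  · simp only [r', t', Units.val_inv_eq_inv_val, Units.val_mk0]
    field_simp
  · simp only [r', t', Units.val_mk0]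
    rw [e]
    field_simp

/-- Spreading the column relation. -/
theorem Col_spread {u v : F} (hu : u ≠ 0) (hv : v ≠ 0) (h : Col ψ s u v) (huv : u * v ∈ Cb F)
    {a b : F} (ha : a ≠ 0) (hb : b ≠ 0) (hab : a * b ∈ Cb F) : Col ψ s a b := by
  obtain ⟨t, ht, hz⟩ := Cb_mul hab (Cb_inv huv)
  let t' : Fˣ := Units.mk0 t ht
  let r' : Fˣ := Units.mk0 (a / (t * u)) (div_ne_zero ha (mul_ne_zero ht hu))
  have h1 := Torus.Col_T2 R (Torus.Col_T1 R h r') t'
  have e : b = t ^ 3 * (u * v) / a := by
    rw [← hz]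
    field_simp
  convert h1 using 1
  · simp only [r', t', Units.val_mk0]
    field_simp
  · simp only [r', t', Units.val_inv_eq_inv_val, Units.val_mk0]
    rw [e]
    field_simp

end Cubes

section Span

variable (R : Rank ψ s)
include R

/-- All relations from the commutator relation at `(1,1)` and a solution of `u + v = w` in cubes,
if the cubes span the field additively. -/
theorem all_of_sum (h : PP ψ s 1 1) {u v : F} (hu : u ∈ Cb F) (hv : v ∈ Cb F) (hw : u + v ∈ Cb F)
    (hspan : AddSubgroup.closure (Cb F) = ⊤) :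
    (∀ a b : F, PP ψ s a b) := by
  have hu0 := Cb_ne hu
  have hv0 := Cb_ne hv
  have hw0 := Cb_ne hw
  -- row
  have hR0 : Row ψ s u v := by
    have := row_of_sum (a := u) (a' := v) (b := 1)
      (PP_of_cube R h hu0 one_ne_zero (by simpa using hu))
      (PP_of_cube R h hv0 one_ne_zero (by simpa using hv))
      (PP_of_cube R h hw0 one_ne_zero (by simpa using hw))
    simpa using this
  have hC0 : Col ψ s v u := by
    have := col_of_sum (a := 1) (b := u) (b' := v)
      (PP_of_cube R h one_ne_zero hu0 (by simpa using Cb_inv hu))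
      (PP_of_cube R h one_ne_zero hv0 (by simpa using Cb_inv hv))
      (PP_of_cube R h one_ne_zero hw0 (by simpa using Cb_inv hw))
    simpa using this
  have hRow : ∀ a c : F, Row ψ s a c := by
    intro a c
    by_cases hc : c = 0
    · subst hc
      simp [Row, C_zero]
    have key : ∀ z ∈ AddSubgroup.closure (Cb F), Row ψ s (z * c⁻¹) c := by
      intro z hz
      induction hz using AddSubgroup.closure_induction with
      | mem z hz =>
        refine Row_spread R hu0 hv0 hR0 (Cb_mul hu hv) ?_ hc ?_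
        · exact mul_ne_zero (Cb_ne hz) (inv_ne_zero hc)
        · have : z * c⁻¹ * c = z := by field_simp
          rwa [this]
      | zero =>
        simp [Row, A_zero]
      | add x y _ _ h1 h2 =>
        unfold Row at h1 h2 ⊢
        rw [add_mul, A_add, mul_assoc, h2, ← mul_assoc, h1, mul_assoc]
      | neg x _ h1 =>
        unfold Row at h1 ⊢
        rw [neg_mul, A_neg]
        exact (Commute.inv_left h1).eq
    have := key (a * c) (by rw [hspan]; trivial)
    have e : a * c * c⁻¹ = a := by field_simp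
    rwa [e] at this
  intro a b
  by_cases hb : b = 0
  · subst hb
    simp [PP, B_zero, C_zero]
  have key : ∀ z ∈ AddSubgroup.closure (Cb F), PP ψ s (z * b) b := by
    intro z hz
    induction hz using AddSubgroup.closure_induction with
    | mem z hz =>
      refine PP_of_cube R h (mul_ne_zero (Cb_ne hz) hb) hb ?_
      have : z * b / b = z := by field_simp
      rwa [this]
    | zero =>
      simp [PP, A_zero, C_zero]
    | add x y _ _ h1 h2 =>
      unfold PP at h1 h2 ⊢
      rw [add_mul, A_add, add_mul, C_add]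
      have hr := hRow (x * b) (y * b * b)
      unfold Row at hr
      have hc : A ψ (x * b) * C ψ s (y * b * b) * (A ψ (x * b))⁻¹ = C ψ s (y * b * b) :=
        mul_inv_eq_of_eq_mul hr
      calc A ψ (x * b) * A ψ (y * b) * B ψ s b * (A ψ (x * b) * A ψ (y * b))⁻¹ * (B ψ s b)⁻¹
          = A ψ (x * b) * (A ψ (y * b) * B ψ s b * (A ψ (y * b))⁻¹ * (B ψ s b)⁻¹) * (A ψ (x * b))⁻¹ *
            (A ψ (x * b) * B ψ s b * (A ψ (x * b))⁻¹ * (B ψ s b)⁻¹) := by group
        _ = C ψ s (y * b * b) * C ψ s (x * b * b) := by rw [h1, h2, hc]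
        _ = _ := C_comm _ _
    | neg x _ h1 =>
      unfold PP at h1 ⊢
      rw [neg_mul, A_neg, neg_mul, C_neg, ← h1]
      have hr := hRow (x * b) (x * b * b)
      unfold Row at hr
      rw [← h1] at hr
      have hc : (A ψ (x * b))⁻¹ * (A ψ (x * b) * B ψ s b * (A ψ (x * b))⁻¹ * (B ψ s b)⁻¹)⁻¹ * A ψ (x * b) =
          (A ψ (x * b) * B ψ s b * (A ψ (x * b))⁻¹ * (B ψ s b)⁻¹)⁻¹ := by
        have h3 := (Commute.inv_right (show Commute (A ψ (x * b))
          (A ψ (x * b) * B ψ s b * (A ψ (x * b))⁻¹ * (B ψ s b)⁻¹) from hr)).eq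
        rw [mul_assoc, ← h3]
        group
      rw [← hc]
      group
  have := key (a / b) (by rw [hspan]; trivial)
  have e : a / b * b = a := by field_simp
  rwa [e] at this

end Span

end Cfsg.Agent.Lib.PresSL.Three
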