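import Mathlib
import Cfsg.Agent.Lib.PresSL.ThreeTight

/-!
# Sums of nonzero cubes in finite fields

`Cb F` spans `F` additively unless `|F| = 4`, and if `|F| ≥ 25`, `|F| ≡ 1 mod 3`, there are nonzero
cubes `u, v` with `u + v = 1` (Jacobi sums).
-/

set_option autoImplicit false

namespace Cfsg.Agent.Lib.PresSL.Three

open scoped ComplexConjugate

variable {F : Type*} [Field F] [Fintype F]

theorem exists_cube_sum (hq : 25 ≤ Fintype.card F) (hmod : 3 ∣ Fintype.card F - 1) :
    ∃ u v : F, u ∈ Cb F ∧ v ∈ Cb F ∧ u + v ∈ Cb F := by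
  classical
  by_contra hcon
  push Not at hcon
  have hω : IsPrimitiveRoot (Complex.exp (2 * Real.pi * Complex.I / (3 : ℕ))) 3 :=
    Complex.isPrimitiveRoot_exp 3 (by norm_num)
  obtain ⟨χ, hχ⟩ := MulChar.exists_mulChar_orderOf F hmod hω
  have h3 : χ ^ 3 = 1 := by rw [← hχ]; exact pow_orderOf_eq_one χ
  have h1 : χ ≠ 1 := by
    rintro rfl
    rw [orderOf_one] at hχ
    norm_num at hχ
  have h2 : χ * χ ≠ 1 := by
    intro h
    have : χ ^ 2 = 1 := by rw [pow_two, h]
    have h4 := orderOf_dvd_of_pow_eq_one this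
    rw [hχ] at h4
    norm_num at h4
  have hinv : χ⁻¹ = χ * χ := by
    apply inv_eq_of_mul_eq_one_left
    rw [← h3, pow_succ, pow_two]
  have hcube : ∀ x : F, x ≠ 0 → (χ x) ^ 3 = 1 := by
    intro x hx
    have h4 : (χ ^ 3) (Units.mk0 x hx : Fˣ) = (χ (Units.mk0 x hx : Fˣ)) ^ 3 := MulChar.pow_apply_coe χ 3 _
    rw [h3] at h4
    simp only [Units.val_mk0] at h4
    rw [← h4]
    exact MulChar.one_apply_coe (Units.mk0 x hx)
  have hinv_apply : ∀ x : F, χ⁻¹ x = χ x * χ x := by
    intro x
    rw [hinv]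
    rfl
  -- the kernel consists of cubes
  have hker : ∀ x : F, x ≠ 0 → χ x = 1 → x ∈ Cb F := by
    intro x hx hχx
    obtain ⟨g, hg⟩ := IsCyclic.exists_monoid_generator (α := Fˣ)
    have hc3 : (χ (g : F)) ^ 3 = 1 := hcube _ g.ne_zero
    have hc1 : χ (g : F) ≠ 1 := by
      intro hc
      apply h1
      apply MulChar.ext
      intro u
      obtain ⟨k, hk⟩ := Submonoid.mem_powers_iff u g |>.1 (hg u)
      rw [← hk]
      simp [map_pow, hc]
    obtain ⟨k, hk⟩ := Submonoid.mem_powers_iff (Units.mk0 x hx) g |>.1 (hg _)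
    have hx' : x = (g : F) ^ k := by
      have := congrArg Units.val hk
      simpa using this.symm
    have ho : orderOf (χ (g : F)) = 3 := by
      haveI : Fact (Nat.Prime 3) := ⟨Nat.prime_three⟩
      exact orderOf_eq_prime hc3 hc1
    have hd : 3 ∣ k := by
      rw [← ho]
      apply orderOf_dvd_of_pow_eq_one
      rw [← map_pow, ← hx', hχx]
    obtain ⟨m, rfl⟩ := hd
    refine ⟨(g : F) ^ m, pow_ne_zero _ g.ne_zero, ?_⟩
    rw [hx', ← pow_mul, mul_comm]
  let f : F → ℂ := fun x => 1 + χ x + χ⁻¹ x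
  have hf : ∀ x : F, x ≠ 0 → f x ≠ 0 → χ x = 1 := by
    intro x hx hfx
    by_contra hne
    apply hfx
    have hc3 := hcube x hx
    have : (χ x - 1) * (1 + χ x + χ x * χ x) = 0 := by linear_combination hc3
    have h5 := (mul_eq_zero.1 this).resolve_left (sub_ne_zero.2 hne)
    show 1 + χ x + χ⁻¹ x = 0
    rw [hinv_apply, h5]
  have hzero : ∀ x : F, x ≠ 0 → x ≠ 1 → f x * f (1 - x) = 0 := by
    intro x hx0 hx1
    by_contra hne
    have h5 := left_ne_zero_of_mul hne
    have h6 := right_ne_zero_of_mul hne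
    have hy0 : 1 - x ≠ 0 := sub_ne_zero.2 (Ne.symm hx1)
    have c1 := hker x hx0 (hf x hx0 h5)
    have c2 := hker (1 - x) hy0 (hf _ hy0 h6)
    apply hcon x (1 - x) c1 c2
    have : x + (1 - x) = 1 := by ring
    rw [this]
    exact Cb_one
  have hχ0 : χ 0 = 0 := MulChar.map_zero χ
  have hχ0' : χ⁻¹ 0 = 0 := MulChar.map_zero χ⁻¹
  have hχ1 : χ 1 = 1 := MulChar.map_one χ
  have hχ1' : χ⁻¹ 1 = 1 := MulChar.map_one χ⁻¹
  have hf0 : f 0 = 1 := by simp [f, hχ0, hχ0']
  have hf1 : f 1 = 3 := by
    simp only [f, hχ1, hχ1']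
    norm_num
  have hsum : ∑ x : F, f x * f (1 - x) = 6 := by
    have hne : (0 : F) ≠ 1 := zero_ne_one
    rw [← Finset.add_sum_erase Finset.univ _ (Finset.mem_univ (0 : F)),
      ← Finset.add_sum_erase (Finset.univ.erase (0 : F)) _ (Finset.mem_erase.2 ⟨hne.symm, Finset.mem_univ (1 : F)⟩)]
    rw [Finset.sum_eq_zero]
    · simp only [sub_zero, sub_self, hf0, hf1]
      norm_num
    · intro x hx
      simp only [Finset.mem_erase, Finset.mem_univ, and_true] at hx
      exact hzero x hx.2 hx.1
  have s1 : ∑ x : F, χ x = 0 := MulChar.sum_eq_zero_of_ne_one h1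
  have s2 : ∑ x : F, χ⁻¹ x = 0 := MulChar.sum_eq_zero_of_ne_one (inv_ne_one.2 h1)
  have s3 : ∑ x : F, χ (1 - x) = 0 := by
    rw [← s1]
    exact Equiv.sum_comp (Equiv.subLeft (1 : F)) (fun x => χ x)
  have s4 : ∑ x : F, χ⁻¹ (1 - x) = 0 := by
    rw [← s2]
    exact Equiv.sum_comp (Equiv.subLeft (1 : F)) (fun x => χ⁻¹ x)
  have hm1 : χ (-1) = 1 := by
    have h5 := hcube (-1) (neg_ne_zero.2 one_ne_zero)
    have h6 : χ (-1) * χ (-1) = 1 := by
      rw [← map_mul]
      simp [hχ1]
    calc χ (-1) = χ (-1) * (χ (-1) * χ (-1)) := by rw [h6, mul_one]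
      _ = _ := by rw [← h5]; ring
  have J1 : jacobiSum χ χ⁻¹ = -1 := by
    rw [jacobiSum_nontrivial_inv h1, hm1]
  have J2 : jacobiSum χ⁻¹ χ = -1 := by
    rw [jacobiSum_comm, J1]
  have hexp : ∑ x : F, f x * f (1 - x) = (Fintype.card F : ℂ) + jacobiSum χ χ + jacobiSum χ χ⁻¹ +
      jacobiSum χ⁻¹ χ + jacobiSum χ⁻¹ χ⁻¹ := by
    have : ∀ x : F, f x * f (1 - x) = 1 + χ x + χ⁻¹ x + χ (1 - x) + χ⁻¹ (1 - x) +
        χ x * χ (1 - x) + χ x * χ⁻¹ (1 - x) + χ⁻¹ x * χ (1 - x) + χ⁻¹ x * χ⁻¹ (1 - x) := by
      intro x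
      simp only [f]
      ring
    simp_rw [this]
    simp only [Finset.sum_add_distrib, s1, s2, s3, s4, jacobiSum]
    simp
  have hJsum : jacobiSum χ χ + jacobiSum χ⁻¹ χ⁻¹ = 8 - (Fintype.card F : ℂ) := by
    rw [hsum, J1, J2] at hexp
    linear_combination -hexp
  have hstar : jacobiSum χ⁻¹ χ⁻¹ = conj (jacobiSum χ χ) := by
    simp only [jacobiSum, map_sum, map_mul]
    refine Finset.sum_congr rfl fun x _ => ?_
    rw [← MulChar.star_apply', ← MulChar.star_apply']
    rfl
  have hchar : ringChar ℂ ≠ ringChar F := by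
    rw [ringChar.eq_zero]
    exact (CharP.ringChar_ne_zero_of_finite F).symm
  have hJmul := jacobiSum_mul_jacobiSum_inv hchar h1 h1 h2
  rw [hstar] at hJmul hJsum
  set J := jacobiSum χ χ with hJ
  have hre : 2 * J.re = 8 - (Fintype.card F : ℝ) := by
    have := congrArg Complex.re hJsum
    simpa [two_mul] using this
  have hns : Complex.normSq J = (Fintype.card F : ℝ) := by
    rw [Complex.mul_conj] at hJmul
    exact_mod_cast hJmul
  have hq' : (25 : ℝ) ≤ (Fintype.card F : ℝ) := by exact_mod_cast hq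
  rw [Complex.normSq_apply] at hns
  nlinarith [sq_nonneg J.im, sq_nonneg J.re]

/-- The subring generated by the cubes is a field, and the cubes span `F` additively if `|F| ≠ 4`. -/
theorem span_cubes (hq : Fintype.card F ≠ 4) : AddSubgroup.closure (Cb F) = ⊤ := by
  classical
  let W : Subfield F := Subfield.closure (Cb F)
  let T : Subring F := Subring.closure (Cb F)
  haveI : Fintype W := Fintype.ofFinite W
  have hWcard : Fintype.card F = Fintype.card W ^ Module.finrank W F := Module.card_eq_pow_finrank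
  set d := Module.finrank W F with hd
  set r := Fintype.card W with hr
  have hr2 : 2 ≤ r := Fintype.one_lt_card
  have hq2 : 2 ≤ Fintype.card F := Fintype.one_lt_card
  -- the cubes in `W`
  let C₀ : Finset F := Finset.univ.filter fun z => z ∈ Cb F
  have hC1 : Fintype.card F - 1 ≤ 3 * C₀.card := by
    have hu : (Finset.univ.erase (0 : F)).card = Fintype.card F - 1 := by
      rw [Finset.card_erase_of_mem (Finset.mem_univ _), Finset.card_univ]
    rw [← hu]
    refine Finset.card_le_mul_card_image_of_maps_to (f := fun t : F => t ^ 3) ?_ 3 ?_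
    · intro t ht
      simp only [Finset.mem_erase, Finset.mem_univ, and_true] at ht
      simp only [C₀, Finset.mem_filter, Finset.mem_univ, true_and]
      exact ⟨t, ht, rfl⟩
    · intro c _
      have h3 : (Polynomial.nthRoots 3 c).toFinset.card ≤ 3 :=
        (Multiset.toFinset_card_le _).trans (Polynomial.card_nthRoots 3 c)
      refine le_trans (Finset.card_le_card ?_) h3
      intro t ht
      simp only [Finset.mem_filter, Finset.mem_erase, Finset.mem_univ, and_true] at ht
      simp only [Multiset.mem_toFinset]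
      exact (Polynomial.mem_nthRoots (by norm_num)).2 ht.2
  have hC2 : C₀.card ≤ r - 1 := by
    let g : C₀ → {w : W // w ≠ 0} := fun z => ⟨⟨z.1, Subfield.subset_closure (by
      have hz := z.2
      simp only [C₀, Finset.mem_filter, Finset.mem_univ, true_and] at hz
      exact hz)⟩, fun h => by
        have := congrArg Subtype.val h
        have hz := z.2
        simp only [C₀, Finset.mem_filter, Finset.mem_univ, true_and] at hz
        exact Cb_ne hz this⟩
    have hg : Function.Injective g := by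
      intro z z' h
      have := congrArg (fun q => (q.1.1 : F)) h
      exact Subtype.ext this
    have h1 := Fintype.card_le_of_injective g hg
    rw [Fintype.card_coe, Fintype.card_subtype_compl] at h1
    simpa using h1
  have hd1 : d = 1 := by
    by_contra hne
    have hd0 : d ≠ 0 := by
      intro h0
      rw [h0, pow_zero] at hWcard
      omega
    have hd2 : 2 ≤ d := by omega
    have hle : r ^ 2 ≤ Fintype.card F := by
      rw [hWcard]
      exact Nat.pow_le_pow_right (by omega) hd2
    have hr2' : r = 2 := by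
      by_contra hr3
      have : 3 ≤ r := by omega
      have h5 : r ^ 2 - 1 ≤ 3 * (r - 1) := by omega
      obtain ⟨r', hr'⟩ : ∃ r', r = r' + 3 := ⟨r - 3, by omega⟩
      rw [hr'] at h5
      have h6 : (r' + 3) ^ 2 = r' * r' + 6 * r' + 9 := by ring
      have h7 : r' + 3 - 1 = r' + 2 := by omega
      rw [h6, h7] at h5
      omega
    rw [hr2'] at hC2
    have hq4 : Fintype.card F ≤ 4 := by omega
    have h4 : 4 ≤ Fintype.card F := by
      rw [hr2'] at hle
      simpa using hle
    exact hq (by omega)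
  have hWtop : W = ⊤ := by
    rw [hd1, pow_one] at hWcard
    rw [eq_top_iff]
    intro a _
    have hinj : Function.Injective (Subtype.val : W → F) := Subtype.val_injective
    have hbij := hinj.bijective_of_nat_card_le (by
      rw [Nat.card_eq_fintype_card, Nat.card_eq_fintype_card, hWcard])
    obtain ⟨w, rfl⟩ := hbij.2 a
    exact w.2
  have hT : ∀ a : F, a ∈ T := by
    intro a
    have ha : a ∈ W := by rw [hWtop]; trivial
    obtain ⟨y, hy, z, hz, rfl⟩ := Subfield.mem_closure_iff.1 ha
    by_cases hz0 : z = 0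
    · rw [hz0, div_zero]
      exact zero_mem _
    · have e : y / z = y * z ^ (Fintype.card F - 2) := by
        have h6 : z ^ (Fintype.card F - 1) = 1 := FiniteField.pow_card_sub_one_eq_one z hz0
        have h7 : z ^ (Fintype.card F - 1) = z ^ (Fintype.card F - 2) * z := by
          rw [← pow_succ]
          congr 1
          omega
        rw [h7] at h6
        rw [div_eq_iff hz0, mul_assoc, h6, mul_one]
      rw [e]
      exact mul_mem hy (pow_mem hz _)
  rw [eq_top_iff]
  intro a _
  have h1 := Subring.mem_closure_iff.1 (hT a)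
  let M : Submonoid F :=
    { carrier := Cb F
      mul_mem' := fun h1 h2 => Cb_mul h1 h2
      one_mem' := Cb_one }
  have hM : Submonoid.closure (Cb F) ≤ M := by
    rw [Submonoid.closure_le]
    exact fun z hz => hz
  exact AddSubgroup.closure_mono hM h1

end Cfsg.Agent.Lib.PresSL.Three
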