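import Mathlib
import Cfsg.Agent.Lib.PresSL.Three
import Cfsg.Agent.Lib.PresSL.SL2Data
import Cfsg.Agent.Lib.Presentations.AltSmall
import Cfsg.Agent.S2286

/-!
# A presentation of `SL₃(F)`
-/

set_option autoImplicit false
set_option linter.unusedSectionVars false

namespace Cfsg.Agent.Lib.PresSL.Three

open Equiv Equiv.Perm Matrix Matrix.SpecialLinearGroup
open Monoid (Coprod)
open scoped MatrixGroups
open Cfsg.Agent.Lib.PSL2.Basic Cfsg.Agent.Lib.PresSL.Aut Cfsg.Agent.Lib.PresSL.Rank2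
open Cfsg.Agent.Lib.PresSL.Core Cfsg.Agent.Lib.PresSL.Real Cfsg.Agent.Lib.PresSL.Links
open Cfsg.Agent.Lib.Steinberg.Family Cfsg.Agent.Lib.Steinberg.LinearStem
open Cfsg.Agent.Lib.Linalg.Transvection

variable {F : Type*} [Field F]

/-- The three-cycle. -/
def s₀ : alternatingGroup (Fin 3) :=
  ⟨swap 0 1 * swap 1 2, by rw [Equiv.Perm.mem_alternatingGroup]; decide⟩

local notation "A₃" => alternatingGroup (Fin 3)
local notation "inl" => (Coprod.inl : alternatingGroup (Fin 3) →* Cp (Fin 3) F)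
local notation "inr" => (Coprod.inr : SL(2, F) →* Cp (Fin 3) F)

/-- `P(1, c)`. -/
noncomputable def linkPc (c : F) : Cp (Fin 3) F :=
  inr (x 1) * (inl s₀ * inr (x c) * (inl s₀)⁻¹) * (inr (x 1))⁻¹ *
    (inl s₀ * inr (x c) * (inl s₀)⁻¹)⁻¹ * ((inl s₀)⁻¹ * inr (y (1 * c)) * ((inl s₀)⁻¹)⁻¹)⁻¹

/-- Row. -/
noncomputable def linkRow (c : F) : Cp (Fin 3) F :=
  inr (x 1) * ((inl s₀)⁻¹ * inr (y c) * ((inl s₀)⁻¹)⁻¹) * (inr (x 1))⁻¹ *
    ((inl s₀)⁻¹ * inr (y c) * ((inl s₀)⁻¹)⁻¹)⁻¹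

/-- Column. -/
noncomputable def linkCol (c : F) : Cp (Fin 3) F :=
  ((inl s₀)⁻¹ * inr (y 1) * ((inl s₀)⁻¹)⁻¹) * (inl s₀ * inr (x c) * (inl s₀)⁻¹) *
    ((inl s₀)⁻¹ * inr (y 1) * ((inl s₀)⁻¹)⁻¹)⁻¹ * (inl s₀ * inr (x c) * (inl s₀)⁻¹)⁻¹

section Eval

variable {K : Type*} [Group K] (π : A₃ →* K) (ψ : SL(2, F) →* K)

local notation "e" => Coprod.lift π ψ

theorem e_linkPc (c : F) : e (linkPc c) = 1 ↔ PP ψ (π s₀) 1 c := by
  simp only [linkPc, map_mul, map_inv, Coprod.lift_apply_inl, Coprod.lift_apply_inr, PP, A, B, C, cj]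
  rw [mul_inv_eq_one]

theorem e_linkRow (c : F) : e (linkRow c) = 1 ↔ Row ψ (π s₀) 1 c := by
  simp only [linkRow, map_mul, map_inv, Coprod.lift_apply_inl, Coprod.lift_apply_inr, Row, A, C, cj]
  rw [mul_inv_eq_one, mul_inv_eq_iff_eq_mul]

theorem e_linkCol (c : F) : e (linkCol c) = 1 ↔ Col ψ (π s₀) 1 c := by
  simp only [linkCol, map_mul, map_inv, Coprod.lift_apply_inl, Coprod.lift_apply_inr, Col, B, C, cj]
  rw [mul_inv_eq_one, mul_inv_eq_iff_eq_mul]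

end Eval

section Real

variable [Fintype F]

theorem h01 : (0 : Fin 3) ≠ 1 := by decide
theorem h02 : (0 : Fin 3) ≠ 2 := by decide
theorem h12 : (1 : Fin 3) ≠ 2 := by decide

local notation "ρ₀" => rho (F := F) h01
local notation "P₀" => (P (ι := Fin 3) (F := F))

theorem real_B (t : F) : B ρ₀ (P₀ s₀) t = (X (Fin 3) F).y 1 2 t := by
  simp only [B]
  rw [rho_x, P_y _ h01]
  rfl

theorem real_A (t : F) : A ρ₀ t = (X (Fin 3) F).y 0 1 t := rho_x _ _

theorem real_C (t : F) : C ρ₀ (P₀ s₀) t = (X (Fin 3) F).y 0 2 t := by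
  simp only [C]
  rw [rho_y, ← map_inv, P_y _ h01.symm]
  rfl

theorem real_PP (a b : F) : PP ρ₀ (P₀ s₀) a b := by
  unfold PP
  rw [real_A, real_B, real_C]
  exact (X (Fin 3) F).comm 0 1 2 h01 h12 h02 a b

theorem real_Row (a b : F) : Row ρ₀ (P₀ s₀) a b := by
  unfold Row
  rw [real_A, real_C]
  exact (X (Fin 3) F).comm' 0 1 0 2 h01 h02 h01.symm h02 a b

theorem real_Col (a b : F) : Col ρ₀ (P₀ s₀) a b := by
  unfold Col
  rw [real_B, real_C]
  exact (X (Fin 3) F).comm' 0 2 1 2 h02 h12 (by decide) (by decide) a b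

theorem real_gen₃ : Subgroup.closure (Set.range P₀ ∪ Set.range ρ₀) = ⊤ := by
  rw [eq_top_iff, ← closure_transvections, Subgroup.closure_le]
  rintro _ ⟨i, j, hij, t, rfl⟩
  have key : ∀ i j : Fin 3, i ≠ j → ∃ g : alternatingGroup (Fin 3),
      ((g : Perm (Fin 3)) 0 = i ∧ (g : Perm (Fin 3)) 1 = j) ∨
      ((g : Perm (Fin 3)) 0 = j ∧ (g : Perm (Fin 3)) 1 = i) := by decide
  obtain ⟨g, ⟨rfl, rfl⟩ | ⟨rfl, rfl⟩⟩ := key i j hij
  · have : SpecialLinearGroup.transvection hij t = cj (P₀ g) (ρ₀ (x t)) := by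
      rw [rho_x, P_y _ h01, X_y hij]
    rw [this]
    show _ * _ * _ ∈ _
    refine mul_mem (mul_mem ?_ ?_) (inv_mem ?_)
    · exact Subgroup.subset_closure (Or.inl ⟨g, rfl⟩)
    · exact Subgroup.subset_closure (Or.inr ⟨_, rfl⟩)
    · exact Subgroup.subset_closure (Or.inl ⟨g, rfl⟩)
  · have : SpecialLinearGroup.transvection hij t = cj (P₀ g) (ρ₀ (y t)) := by
      rw [rho_y, P_y _ h01.symm, X_y hij]
    rw [this]
    show _ * _ * _ ∈ _
    refine mul_mem (mul_mem ?_ ?_) (inv_mem ?_)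
    · exact Subgroup.subset_closure (Or.inl ⟨g, rfl⟩)
    · exact Subgroup.subset_closure (Or.inr ⟨_, rfl⟩)
    · exact Subgroup.subset_closure (Or.inl ⟨g, rfl⟩)

/-- The links for `SL₃`. -/
noncomputable def links₃ (ζ : Fˣ) (g₁ g₂ : SL(2, F)) : List (Cp (Fin 3) F) :=
  link1 s₀ :: linkH ζ s₀ g₁ :: linkH ζ s₀ g₂ ::
    (((List.finRange 3).map fun i : Fin 3 => linkPc ((ζ : F) ^ (i : ℕ))) ++
    (((List.finRange 3).map fun i : Fin 3 => linkRow ((ζ : F) ^ (i : ℕ))) ++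
    ((List.finRange 3).map fun i : Fin 3 => linkCol ((ζ : F) ^ (i : ℕ)))))

theorem s₀_val : (s₀ : Perm (Fin 3)) = swap 0 1 * swap 1 2 := rfl

/-- **The presentation of `SL₃`.** -/
theorem sl_three : ∃ rels : Finset (FreeGroup (Fin 5)), rels.card ≤ 29 ∧
    Nonempty (PresentedGroup (↑rels : Set (FreeGroup (Fin 5))) ≃*
      SpecialLinearGroup (Fin 3) F) := by
  classical
  obtain ⟨rA, hrA, ⟨EA⟩⟩ := (Cfsg.Agent.Lib.Presentations.AltSmall.small 3 (by norm_num)).2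
  obtain ⟨⟨rS, hrS, ⟨ES⟩⟩, -, -⟩ := Cfsg.Agent.S2286.result (F := F)
  obtain ⟨ζ, hζ⟩ := Cfsg.Agent.Lib.PresSL.SL2Data.exists_gen_unit (F := F)
  obtain ⟨g₁, g₂, hg⟩ := Cfsg.Agent.Lib.PresSL.SL2Data.exists_pair (F := F)
  have hs1 : (s₀ : Perm (Fin 3)) 0 = 1 := by
    rw [s₀_val]
    decide
  have hs2 : (s₀ : Perm (Fin 3)) 1 = 2 := by
    rw [s₀_val]
    decide
  have hs3 : (s₀ : Perm (Fin 3)) 2 = 0 := by
    rw [s₀_val]
    decide
  obtain ⟨rels, hrels, hE⟩ := Glue.glue EA ES (links₃ ζ g₁ g₂) P (rho (F := F) h01) (by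
      intro l hl
      simp only [links₃, List.mem_cons, List.mem_append, List.mem_map] at hl
      rcases hl with rfl | rfl | rfl | ⟨i, -, rfl⟩ | ⟨i, -, rfl⟩ | ⟨i, -, rfl⟩
      · rw [e_link1]
        exact real_sw h01 h02 h12 s₀_val
      · rw [e_linkH]
        exact real_act h01 h02 h12 hs1 hs2 _ _
      · rw [e_linkH]
        exact real_act h01 h02 h12 hs1 hs2 _ _
      · rw [e_linkPc]
        exact real_PP _ _
      · rw [e_linkRow]
        exact real_Row _ _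
      · rw [e_linkCol]
        exact real_Col _ _) real_gen₃ (by
      intro K _ π ψ hgen hL
      have mem : ∀ l, (l = link1 s₀ ∨ l = linkH ζ s₀ g₁ ∨ l = linkH ζ s₀ g₂ ∨
          (∃ i : Fin 3, linkPc ((ζ : F) ^ (i : ℕ)) = l) ∨ (∃ i : Fin 3, linkRow ((ζ : F) ^ (i : ℕ)) = l) ∨
          (∃ i : Fin 3, linkCol ((ζ : F) ^ (i : ℕ)) = l)) → l ∈ links₃ ζ g₁ g₂ := by
        intro l hl
        simp only [links₃, List.mem_cons, List.mem_append, List.mem_map]
        rcases hl with h | h | h | ⟨i, h⟩ | ⟨i, h⟩ | ⟨i, h⟩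
        · exact Or.inl h
        · exact Or.inr (Or.inl h)
        · exact Or.inr (Or.inr (Or.inl h))
        · exact Or.inr (Or.inr (Or.inr (Or.inl ⟨i, List.mem_finRange i, h⟩)))
        · exact Or.inr (Or.inr (Or.inr (Or.inr (Or.inl ⟨i, List.mem_finRange i, h⟩))))
        · exact Or.inr (Or.inr (Or.inr (Or.inr (Or.inr ⟨i, List.mem_finRange i, h⟩))))
      have h1 := hL _ (mem _ (Or.inl rfl))
      rw [e_link1] at h1
      have hact := act_all (ψ := ψ) (s := π s₀) hζ hg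
        ((e_linkH π ψ ζ s₀ g₁).1 (hL _ (mem _ (Or.inr (Or.inl rfl)))))
        ((e_linkH π ψ ζ s₀ g₂).1 (hL _ (mem _ (Or.inr (Or.inr (Or.inl rfl))))))
      have hs3' : π s₀ * π s₀ * π s₀ = 1 := by
        rw [← map_mul, ← map_mul]
        have : s₀ * s₀ * s₀ = 1 := by decide
        rw [this, map_one]
      have R : Rank ψ (π s₀) := { s3 := hs3', sw := h1, act := hact }
      have hP := PP_all R hζ (fun i => (e_linkPc π ψ _).1
        (hL _ (mem _ (Or.inr (Or.inr (Or.inr (Or.inl ⟨i, rfl⟩)))))))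
      have hRow := Row_all R hζ (fun i => (e_linkRow π ψ _).1
        (hL _ (mem _ (Or.inr (Or.inr (Or.inr (Or.inr (Or.inl ⟨i, rfl⟩))))))))
      have hCol := Col_all R hζ (fun i => (e_linkCol π ψ _).1
        (hL _ (mem _ (Or.inr (Or.inr (Or.inr (Or.inr (Or.inr ⟨i, rfl⟩))))))))
      refine fam_bound R hP hRow hCol ?_
      rw [eq_top_iff, ← hgen, Subgroup.closure_le]
      rintro _ (⟨g, rfl⟩ | ⟨g, rfl⟩)
      · have key : ∀ g : alternatingGroup (Fin 3), g = 1 ∨ g = s₀ ∨ g = s₀ * s₀ := by decide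
        have hsm : π s₀ ∈ Subgroup.closure (insert (π s₀) (Set.range ψ)) :=
          Subgroup.subset_closure (Or.inl rfl)
        rcases key g with rfl | rfl | rfl
        · rw [map_one]
          exact one_mem _
        · exact hsm
        · rw [map_mul]
          exact mul_mem hsm hsm
      · exact Subgroup.subset_closure (Or.inr ⟨g, rfl⟩))
  refine ⟨rels, ?_, hE⟩
  have hlen : (links₃ ζ g₁ g₂).length = 12 := by
    simp [links₃]
  omega

end Real

end Cfsg.Agent.Lib.PresSL.Three
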