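import Mathlib
import Cfsg.Agent.Lib.PresSL.ThreeGlue
import Cfsg.Agent.Lib.PresSL.CubeSum

/-!
# A presentation of `SL₃(F)` with four generators and fourteen relations
-/

set_option autoImplicit false
set_option linter.unusedSectionVars false

namespace Cfsg.Agent.Lib.PresSL.Three

open Equiv Equiv.Perm Matrix Matrix.SpecialLinearGroup Polynomial
open Monoid (Coprod)
open scoped MatrixGroups
open Cfsg.Agent.Lib.PSL2.Basic Cfsg.Agent.Lib.PresSL.Aut Cfsg.Agent.Lib.PresSL.Rank2
open Cfsg.Agent.Lib.PresSL.Core Cfsg.Agent.Lib.PresSL.Real Cfsg.Agent.Lib.PresSL.Links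
open Cfsg.Agent.Lib.Steinberg.Family Cfsg.Agent.Lib.Steinberg.LinearStem
open Cfsg.Agent.Lib.Linalg.Transvection

/-- `A₃` has a presentation on one generator with one relator. -/
theorem A3_pres : ∃ rels : Finset (FreeGroup (Fin 1)), rels.card ≤ 1 ∧
    Nonempty (PresentedGroup (↑rels : Set (FreeGroup (Fin 1))) ≃* alternatingGroup (Fin 3)) := by
  classical
  refine Glue.finish' [FreeGroup.of (0 : Fin 1) ^ 3] (by simp) ![s₀] ?_ ?_ ?_
  · intro r hr
    simp only [List.mem_cons, List.not_mem_nil, or_false] at hr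
    subst hr
    simp only [map_pow, FreeGroup.lift_apply_of, Matrix.cons_val_fin_one]
    decide
  · rw [eq_top_iff]
    intro g _
    have key : ∀ g : alternatingGroup (Fin 3), g = 1 ∨ g = s₀ ∨ g = s₀ * s₀ := by decide
    have hsm : s₀ ∈ Subgroup.closure (Set.range ![s₀]) := Subgroup.subset_closure ⟨0, rfl⟩
    rcases key g with rfl | rfl | rfl
    · exact one_mem _
    · exact hsm
    · exact mul_mem hsm hsm
  · intro K _ φ hφ hr
    set a := φ (FreeGroup.of (0 : Fin 1)) with ha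
    have ha3 : a ^ 3 = 1 := by
      have := hr _ (List.mem_cons_self)
      rwa [map_pow] at this
    have hz : ∀ y : K, ∃ k : ℤ, y = a ^ k := by
      intro y
      obtain ⟨r, rfl⟩ := hφ y
      induction r using FreeGroup.induction_on with
      | C1 => exact ⟨0, by simp⟩
      | of i =>
        obtain rfl : i = 0 := Subsingleton.elim _ _
        exact ⟨1, by simp [ha]⟩
      | inv_of i h =>
        obtain ⟨k, hk⟩ := h
        exact ⟨-k, by rw [map_inv, hk, _root_.zpow_neg]⟩
      | mul u v hu hv =>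
        obtain ⟨k, hk⟩ := hu
        obtain ⟨l, hl⟩ := hv
        exact ⟨k + l, by rw [map_mul, hk, hl, _root_.zpow_add]⟩
    have hs : Function.Surjective (fun i : Fin 3 => a ^ (i : ℕ)) := by
      intro y
      obtain ⟨k, rfl⟩ := hz y
      have h3 : (0 : ℤ) ≤ k % 3 := Int.emod_nonneg _ (by norm_num)
      have h4 : k % 3 < 3 := Int.emod_lt_of_pos _ (by norm_num)
      obtain ⟨m, hm⟩ := Int.eq_ofNat_of_zero_le h3
      refine ⟨⟨m, by omega⟩, ?_⟩
      have e : k = 3 * (k / 3) + (m : ℤ) := by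
        rw [← hm]
        exact (Int.mul_ediv_add_emod k 3).symm
      show a ^ m = a ^ k
      conv_rhs => rw [e]
      rw [_root_.zpow_add, _root_.zpow_mul, zpow_natCast]
      have : (a ^ ((3 : ℤ))) = 1 := by
        exact_mod_cast ha3
      rw [this, _root_.one_zpow, one_mul]
    refine ⟨Finite.of_surjective _ hs, ?_⟩
    have h1 := Nat.card_le_card_of_surjective _ hs
    refine h1.trans (le_of_eq ?_)
    rw [Nat.card_eq_fintype_card, Fintype.card_fin, Nat.card_eq_fintype_card]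
    decide

variable {F : Type*} [Field F] [Fintype F]

local notation "A₃" => alternatingGroup (Fin 3)

/-- The links. -/
noncomputable def links₄ (ζ : Fˣ) (g₁ g₂ : SL(2, F)) (cs : List F) : List (Cp (Fin 3) F) :=
  link1 s₀ :: linkH ζ s₀ g₁ :: linkH ζ s₀ g₂ :: cs.map linkPc

/-- Gluing with few commutator relations. -/
theorem tight {rS : Finset (FreeGroup (Fin 3))}
    (ES : PresentedGroup (↑rS : Set (FreeGroup (Fin 3))) ≃* SL(2, F)) (cs : List F)
    (hcs : ∀ (K : Type) [Group K] (ψ : SL(2, F) →* K) (s : K), Rank ψ s →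
      (∀ c ∈ cs, PP ψ s 1 c) → ∀ a b : F, PP ψ s a b) :
    ∃ rels : Finset (FreeGroup (Fin 4)), rels.card ≤ rS.card + 1 + 3 + cs.length ∧
      Nonempty (PresentedGroup (↑rels : Set (FreeGroup (Fin 4))) ≃*
        SpecialLinearGroup (Fin 3) F) := by
  classical
  obtain ⟨rA, hrA, ⟨EA⟩⟩ := A3_pres
  obtain ⟨ζ, hζ⟩ := SL2Data.exists_gen_unit (F := F)
  obtain ⟨g₁, g₂, hg⟩ := SL2Data.exists_pair (F := F)
  have hs1 : (s₀ : Perm (Fin 3)) 0 = 1 := by
    rw [s₀_val]
    decide
  have hs2 : (s₀ : Perm (Fin 3)) 1 = 2 := by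
    rw [s₀_val]
    decide
  obtain ⟨rels, hrels, hE⟩ := Glue.glue EA ES (links₄ ζ g₁ g₂ cs) P (rho (F := F) h01) (by
      intro l hl
      simp only [links₄, List.mem_cons, List.mem_map] at hl
      rcases hl with rfl | rfl | rfl | ⟨c, -, rfl⟩
      · rw [e_link1]
        exact real_sw h01 h02 h12 s₀_val
      · rw [e_linkH]
        exact real_act h01 h02 h12 hs1 hs2 _ _
      · rw [e_linkH]
        exact real_act h01 h02 h12 hs1 hs2 _ _
      · rw [e_linkPc]
        exact real_PP _ _) real_gen₃ (by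
      intro K _ π ψ hgen hL
      have mem : ∀ l, (l = link1 s₀ ∨ l = linkH ζ s₀ g₁ ∨ l = linkH ζ s₀ g₂ ∨
          (∃ c ∈ cs, linkPc c = l)) → l ∈ links₄ ζ g₁ g₂ cs := by
        intro l hl
        simpa only [links₄, List.mem_cons, List.mem_map] using hl
      have h1 := hL _ (mem _ (Or.inl rfl))
      rw [e_link1] at h1
      have hact := act_all (ψ := ψ) (s := π s₀) hζ hg
        ((e_linkH π ψ ζ s₀ g₁).1 (hL _ (mem _ (Or.inr (Or.inl rfl)))))
        ((e_linkH π ψ ζ s₀ g₂).1 (hL _ (mem _ (Or.inr (Or.inr (Or.inl rfl))))))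
      have hs3' : π s₀ * π s₀ * π s₀ = 1 := by
        rw [← map_mul, ← map_mul]
        have : s₀ * s₀ * s₀ = 1 := by decide
        rw [this, map_one]
      have R : Rank ψ (π s₀) := { s3 := hs3', sw := h1, act := hact }
      have hP := hcs K ψ (π s₀) R (fun c hc => (e_linkPc π ψ c).1
        (hL _ (mem _ (Or.inr (Or.inr (Or.inr ⟨c, hc, rfl⟩))))))
      refine fam_bound R hP (Row_of_PP hP) (Col_of_PP hP) ?_
      rw [eq_top_iff, ← hgen, Subgroup.closure_le]
      rintro _ (⟨g, rfl⟩ | ⟨g, rfl⟩)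
      · have key : ∀ g : alternatingGroup (Fin 3), g = 1 ∨ g = s₀ ∨ g = s₀ * s₀ := by decide
        have hsm : π s₀ ∈ Subgroup.closure (insert (π s₀) (Set.range ψ)) :=
          Subgroup.subset_closure (Or.inl rfl)
        rcases key g with rfl | rfl | rfl
        · rw [map_one]
          exact one_mem _
        · exact hsm
        · rw [map_mul]
          exact mul_mem hsm hsm
      · exact Subgroup.subset_closure (Or.inr ⟨g, rfl⟩))
  refine ⟨rels, ?_, hE⟩
  have hlen : (links₄ ζ g₁ g₂ cs).length = 3 + cs.length := by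
    simp [links₄]
    omega
  omega

section PrimeSL

open Cfsg.Agent.Lib.Presentations.Additive Cfsg.Agent.Lib.Presentations.Bound
open Cfsg.Agent.Lib.Presentations.Core Cfsg.Agent.Lib.Presentations.Mat
open Cfsg.Agent.Lib.Presentations.Odd

variable {p : ℕ} [Fact p.Prime] [CharP F p] [Algebra (ZMod p) F] {ζ : F} (hζ : ζ ≠ 0)
variable (hgen : ∀ a : F, a ≠ 0 → ∃ n : ℕ, a = ζ ^ n)
  (hsurj : ∀ a : F, ∃ f : (ZMod p)[X], aeval (ζ ^ 2) f = a)

include hgen hsurj

/-- A variant of the main theorem for `SL₂` with a list of length one. -/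
theorem main_SL₁ {E : List (FreeGroup (Fin 3))} (hE : Good p hζ E) (hlen : E.length ≤ 1) {N : ℕ}
    (hN0 : 0 < N) (hN : ζ ^ N = -1) (hq : Fintype.card F = 2 * N + 1) :
    ∃ rels : Finset (FreeGroup (Fin 3)), rels.card ≤ 7 ∧
      Nonempty (PresentedGroup (↑rels : Set (FreeGroup (Fin 3))) ≃* SL(2, F)) := by
  obtain ⟨f₁, hf₁⟩ := hsurj ζ
  obtain ⟨f₂, hf₂⟩ := hsurj (-ζ⁻¹)
  refine finish ([r1, T ^ 2 * (H ^ N)⁻¹, U ^ p, pw p H U 1 (minpoly (ZMod p) (ζ ^ 2)), r7,
    r8 p f₁ f₂] ++ E) (by simp; omega) ![w, x 1, d ζ hζ] ?_ (gen_SL hζ hsurj) ?_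
  · intro r hr
    change ev hζ r = 1
    simp only [List.mem_append, List.mem_cons, List.not_mem_nil, or_false] at hr
    rcases hr with (rfl | rfl | rfl | rfl | rfl | rfl) | hr
    · exact ev_r1 hζ
    · simp only [map_mul, map_inv, map_pow, ev_T, ev_H]
      rw [d_pow_neg_one hζ hN, pow_two, w_mul_w, mul_inv_cancel]
    · exact ev_r3 hζ
    · exact ev_r4 hζ
    · exact ev_r7 hζ
    · exact ev_r8 hζ hf₁ hf₂
    · exact hE.1 r hr
  · intro K _ φ hφ hr
    have hE' : ∀ r ∈ E, φ r = 1 := fun r h => hr r (List.mem_append_right _ h)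
    have e1 := rel_r1 (hr r1 (by simp))
    have e2 : φ (T ^ 2 * (H ^ N)⁻¹) = 1 := hr _ (by simp)
    have e3 : φ (U ^ p) = 1 := hr _ (by simp)
    have e4 : φ (pw p H U 1 (minpoly (ZMod p) (ζ ^ 2))) = 1 := hr _ (by simp)
    have e7 := rel_r7 (hr r7 (by simp))
    have e8 := rel_r8 (hr (r8 p f₁ f₂) (by simp))
    simp only [map_mul, map_inv, map_pow] at e2
    rw [map_pow] at e3
    rw [map_pw] at e4
    have := bound_SL (K := K) (t := φ T) (u := φ U) (h := φ H) (ζ := ζ) (N := N) hsurj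
      (gen_of_map hφ) hζ rfl hgen hN0 hf₁ hf₂ (hE.2 K φ hE' e3) e3 e4 e1 (mul_inv_eq_one.1 e2) e7 e8
    refine ⟨this.1, this.2.trans (le_of_eq ?_)⟩
    rw [card_SL2, hq]
    have : (2 * N + 1) ^ 2 - 1 = 2 * N * (2 * N + 1 + 1) := by
      have : (2 * N + 1) ^ 2 = 2 * N * (2 * N + 1 + 1) + 1 := by ring
      omega
    rw [this]
    ring

end PrimeSL

section PrimeField

open Cfsg.Agent.Lib.Presentations.Odd

/-- `SL₂` of an odd prime field. -/
theorem prime_SL₂ {p : ℕ} [Fact p.Prime] [CharP F p] (h2 : (2 : F) ≠ 0)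
    (hcard : Fintype.card F = p) :
    ∃ rels : Finset (FreeGroup (Fin 3)), rels.card ≤ 7 ∧
      Nonempty (PresentedGroup (↑rels : Set (FreeGroup (Fin 3))) ≃* SL(2, F)) := by
  classical
  letI : Algebra (ZMod p) F := ZMod.algebra F p
  obtain ⟨ζ, hζ, hgen, hord⟩ := Cfsg.Agent.Lib.Presentations.Zech.exists_gen (F := F)
  have hsq : ∀ y : F, ∃ f : (ZMod p)[X], aeval (ζ ^ 2) f = y ^ 2 := by
    intro y
    by_cases hy : y = 0
    · exact ⟨0, by simp [hy]⟩
    · obtain ⟨n, rfl⟩ := hgen y hy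
      exact ⟨Polynomial.X ^ n, by simp [← pow_mul, mul_comm]⟩
  have hsurj : ∀ a : F, ∃ f : (ZMod p)[X], aeval (ζ ^ 2) f = a := by
    intro a
    obtain ⟨f₁, hf₁⟩ := hsq ((a + 1) / 2)
    obtain ⟨f₂, hf₂⟩ := hsq ((a - 1) / 2)
    refine ⟨f₁ - f₂, ?_⟩
    rw [map_sub, hf₁, hf₂]
    field_simp
    ring
  have hinj : Function.Injective (algebraMap (ZMod p) F) := (algebraMap (ZMod p) F).injective
  have hbij : Function.Bijective (algebraMap (ZMod p) F) :=
    hinj.bijective_of_nat_card_le (by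
      rw [Nat.card_eq_fintype_card, Nat.card_eq_fintype_card, hcard, ZMod.card])
  obtain ⟨ξ', hξ'⟩ := hbij.2 (ζ ^ 2)
  have hξ0 : ξ' ≠ 0 := by
    rintro rfl
    rw [map_zero] at hξ'
    exact pow_ne_zero 2 hζ hξ'.symm
  have hE : Good p hζ _ := good_prime hζ (c := ξ'.val) (c' := (ξ'⁻¹).val) (by
      rw [← hξ', ← map_natCast (algebraMap (ZMod p) F), ZMod.natCast_zmod_val]) (by
      have h1 : ξ' * ξ'⁻¹ = 1 := mul_inv_cancel₀ hξ0
      have h3 := congrArg ZMod.val h1
      rw [ZMod.val_mul, ZMod.val_one_eq_one_mod] at h3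
      exact h3)
  have hchar : ringChar F ≠ 2 := by
    intro h
    apply h2
    have := ringChar.spec F 2
    have h3 : ((2 : ℕ) : F) = 0 := this.2 (by rw [h])
    exact_mod_cast h3
  have hodd : Fintype.card F % 2 = 1 := FiniteField.odd_card_of_char_ne_two hchar
  obtain ⟨N, hN⟩ : ∃ N, Fintype.card F = 2 * N + 1 := ⟨Fintype.card F / 2, by omega⟩
  have hq1 : 1 < Fintype.card F := Fintype.one_lt_card
  have hN0 : 0 < N := by omega
  have hζN : ζ ^ N = -1 := by
    have h1 : (ζ ^ N) ^ 2 = 1 := by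
      rw [← pow_mul, mul_comm]
      have := FiniteField.pow_card_sub_one_eq_one ζ hζ
      rwa [hN, Nat.add_sub_cancel] at this
    have h3 : ζ ^ N ≠ 1 := by
      intro h
      have := Nat.le_of_dvd hN0 (hord N h)
      omega
    have h4 : (ζ ^ N - 1) * (ζ ^ N + 1) = 0 := by
      linear_combination h1
    rcases mul_eq_zero.1 h4 with h5 | h5
    · exact absurd (sub_eq_zero.1 h5) h3
    · exact eq_neg_of_add_eq_zero_left h5
  exact main_SL₁ hζ hgen hsurj hE (by simp) hN0 hζN hN

end PrimeField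

/-- If `3 ∤ q - 1`, every nonzero element is a cube. -/
theorem all_cubes (h : ¬ 3 ∣ Fintype.card F - 1) {z : F} (hz : z ≠ 0) : z ∈ Cb F := by
  classical
  have hc : Nat.Coprime (Nat.card Fˣ) 3 := by
    rw [Nat.card_eq_fintype_card, Fintype.card_units, Nat.coprime_comm]
    exact (Nat.Prime.coprime_iff_not_dvd Nat.prime_three).2 h
  obtain ⟨t, ht⟩ := (powCoprime hc).surjective (Units.mk0 z hz)
  refine ⟨(t : F), t.ne_zero, ?_⟩
  have := congrArg Units.val ht
  simp only [powCoprime_apply, Units.val_pow_eq_pow_val, Units.val_mk0] at this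
  exact this.symm

/-- **The presentation of `SL₃`, four generators and fourteen relators.** -/
theorem sl_three_tight (hq9 : Fintype.card F ≠ 9) :
    ∃ rels : Finset (FreeGroup (Fin 4)), rels.card ≤ 14 ∧
      Nonempty (PresentedGroup (↑rels : Set (FreeGroup (Fin 4))) ≃*
        SpecialLinearGroup (Fin 3) F) := by
  classical
  obtain ⟨ζ, hζ⟩ := SL2Data.exists_gen_unit (F := F)
  have hcs3 : ∀ (K : Type) [Group K] (ψ : SL(2, F) →* K) (s : K), Rank ψ s →
      (∀ c ∈ [(ζ : F) ^ ((0 : Fin 3) : ℕ), (ζ : F) ^ ((1 : Fin 3) : ℕ), (ζ : F) ^ ((2 : Fin 3) : ℕ)],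
        PP ψ s 1 c) → ∀ a b : F, PP ψ s a b := by
    intro K _ ψ s R h
    refine PP_all R hζ (fun i => h _ ?_)
    fin_cases i <;> simp
  by_cases h2 : (2 : F) = 0
  · haveI hc : CharP F 2 := CharTwo.of_one_ne_zero_of_two_eq_zero one_ne_zero h2
    haveI : Fact (Nat.Prime 2) := ⟨Nat.prime_two⟩
    letI : Algebra (ZMod 2) F := ZMod.algebra F 2
    obtain ⟨rS, hrS, ⟨ES⟩⟩ := Cfsg.Agent.Lib.Presentations.Even.even_main (F := F)
      (MonoidHom.id (Matrix.SpecialLinearGroup (Fin 2) F)) Function.surjective_id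
      Cfsg.Agent.Lib.PSL2.Basic.card_SL2
    obtain ⟨rels, hrels, hE⟩ := tight ES _ hcs3
    refine ⟨rels, ?_, hE⟩
    simp only [List.length_cons, List.length_nil] at hrels
    omega
  · obtain ⟨p, hp⟩ := CharP.exists F
    haveI : Fact p.Prime := ⟨CharP.char_is_prime F p⟩
    obtain ⟨n, hpp, hcard⟩ := FiniteField.card F p
    by_cases hn : (n : ℕ) = 1
    · rw [hn, pow_one] at hcard
      obtain ⟨rS, hrS, ⟨ES⟩⟩ := prime_SL₂ (p := p) h2 hcard
      obtain ⟨rels, hrels, hE⟩ := tight ES _ hcs3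
      refine ⟨rels, ?_, hE⟩
      simp only [List.length_cons, List.length_nil] at hrels
      omega
    · have hp2 : p ≠ 2 := by
        rintro rfl
        apply h2
        exact_mod_cast CharP.cast_eq_zero F 2
      have hq25 : 25 ≤ Fintype.card F := by
        have hn2 : 2 ≤ (n : ℕ) := by
          have := n.pos
          omega
        have hp3 : 3 ≤ p := by
          have := hpp.two_le
          omega
        rw [hcard]
        by_cases hp3' : p = 3
        · subst hp3'
          have hn3 : 3 ≤ (n : ℕ) := by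
            by_contra hlt
            have : (n : ℕ) = 2 := by omega
            rw [this] at hcard
            exact hq9 hcard
          calc 25 ≤ 3 ^ 3 := by norm_num
            _ ≤ 3 ^ (n : ℕ) := Nat.pow_le_pow_right (by norm_num) hn3
        · have hp5 : 5 ≤ p := by
            by_contra hlt
            have : p = 4 := by omega
            rw [this] at hpp
            exact absurd hpp (by decide)
          calc 25 = 5 ^ 2 := by norm_num
            _ ≤ p ^ 2 := Nat.pow_le_pow_left hp5 2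
            _ ≤ p ^ (n : ℕ) := Nat.pow_le_pow_right hpp.pos hn2
      obtain ⟨⟨rS, hrS, ⟨ES⟩⟩, -, -⟩ := Cfsg.Agent.S2286.result (F := F)
      obtain ⟨u, v, hu, hv, hw⟩ : ∃ u v : F, u ∈ Cb F ∧ v ∈ Cb F ∧ u + v ∈ Cb F := by
        by_cases hmod : 3 ∣ Fintype.card F - 1
        · exact exists_cube_sum hq25 hmod
        · refine ⟨1, 1, Cb_one, Cb_one, all_cubes hmod ?_⟩
          rw [one_add_one_eq_two]
          exact h2
      have hspan := span_cubes (F := F) (by omega)
      obtain ⟨rels, hrels, hE⟩ := tight ES [1] (fun K _ ψ s R h =>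
        all_of_sum R (h 1 (by simp)) hu hv hw hspan)
      refine ⟨rels, ?_, hE⟩
      simp only [List.length_cons, List.length_nil] at hrels
      omega

end Cfsg.Agent.Lib.PresSL.Three
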